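import Cfsg.Agent.PermGroups.Sylvester.Main
import Cfsg.Agent.PermGroups.JordanCycle

/-!
A transitive action of an alternating group has a fixed-point-free element whose order is the largest prime
dividing the degree.
-/

set_option autoImplicit false

namespace Cfsg.Agent.PermGroups.AltDerangement

open Equiv MulAction
open scoped Pointwise

variable {α : Type*} [Fintype α] [DecidableEq α]

/-- An element of prime order `p` on fewer than `2 p` points is a `p`-cycle. -/
theorem cycle_of_lt_two_mul {p : ℕ} (hp : p.Prime) {g : Perm α} (hg : orderOf g = p)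
    (hcard : Fintype.card α < 2 * p) : g.IsCycle ∧ g.support.card = p := by
  have hc := Perm.isCycle_of_prime_order (σ := g) (by rw [hg]; exact hp)
    (by rw [hg]; exact lt_of_le_of_lt (Finset.card_le_univ _) hcard)
  exact ⟨hc, by rw [← hc.orderOf, hg]⟩

/-- A transitive group with an element of prime order `p`, `p ≤ n < 2 p`, is primitive. -/
theorem primitive_of_big_prime (L : Subgroup (Perm α)) (hL : IsPretransitive L α) {p : ℕ} (hp : p.Prime)
    {g : Perm α} (hgL : g ∈ L) (hg : orderOf g = p) (hcard : Fintype.card α < 2 * p) : IsPreprimitive L α := by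
  haveI := hL
  obtain ⟨hc, hs⟩ := cycle_of_lt_two_mul hp hg hcard
  refine ⟨fun {B} hB => ?_⟩
  by_contra hnt
  simp only [IsTrivialBlock, not_or] at hnt
  obtain ⟨hsub, huniv⟩ := hnt
  have hne : B.Nonempty := Set.nonempty_iff_ne_empty.2 fun e => hsub (by rw [e]; exact Set.subsingleton_empty)
  have hmul := hB.ncard_block_mul_ncard_orbit_eq hne
  rw [Nat.card_eq_fintype_card] at hmul
  have hB2 : 2 ≤ B.ncard := by
    by_contra hlt
    exact hsub (Set.ncard_le_one_iff_subsingleton.1 (by omega))
  have horb2 : 2 ≤ (MulAction.orbit L B).ncard := by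
    by_contra hlt
    refine huniv (Set.eq_univ_iff_forall.2 fun y => ?_)
    obtain ⟨x, hx⟩ := hne
    obtain ⟨h, rfl⟩ := MulAction.exists_smul_eq L x y
    have h1 : h • B = B := (Set.ncard_le_one (Set.toFinite _)).1 (by omega) _ (MulAction.mem_orbit B h) _ (MulAction.mem_orbit_self B)
    rw [← h1]
    exact Set.smul_mem_smul_set hx
  have hBp : B.ncard < p := by nlinarith [Nat.mul_le_mul_left B.ncard horb2]
  have horbp : (MulAction.orbit L B).ncard < p := by nlinarith [Nat.mul_le_mul_right (MulAction.orbit L B).ncard hB2]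
  -- a power of `g` fixing `B` setwise is `g` itself
  set g' : L := ⟨g, hgL⟩ with hg'
  have hg'o : orderOf g' = p := by rw [hg', Subgroup.orderOf_mk, hg]
  obtain ⟨x, hx⟩ : ∃ x, g x ≠ x := ⟨_, Perm.mem_support.1 (Finset.card_pos.1 (by rw [hs]; exact hp.pos)).choose_spec⟩
  obtain ⟨y, hy⟩ := hne
  obtain ⟨h, hh⟩ := MulAction.exists_smul_eq L y x
  set B' := h • B with hB'
  have hxB : x ∈ B' := hh ▸ Set.smul_mem_smul_set hy
  have hB'c : B'.ncard = B.ncard := by rw [hB']; exact Set.ncard_image_of_injective _ (MulAction.injective h)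
  have hfix : g' • B' = B' := by
    have hpow : ∀ i : ℕ, g' ^ i • B' ∈ MulAction.orbit L B := fun i =>
      ⟨g' ^ i * h, by simp [hB', mul_smul]⟩
    obtain ⟨i, j, hij, hj, e⟩ : ∃ i j, i < j ∧ j < p ∧ g' ^ i • B' = g' ^ j • B' := by
      by_contra hno
      push Not at hno
      have hinj : Function.Injective fun i : Fin p => (⟨g' ^ (i : ℕ) • B', hpow i⟩ : MulAction.orbit L B) := by
        intro a b e
        simp only [Subtype.mk.injEq] at e
        rcases lt_trichotomy (a : ℕ) b with h' | h' | h'
        · exact absurd e (hno a b h' b.2)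
        · exact Fin.ext h'
        · exact absurd e.symm (hno b a h' a.2)
      have := Nat.card_le_card_of_injective _ hinj
      rw [Nat.card_eq_fintype_card, Fintype.card_fin, Nat.card_coe_set_eq] at this
      omega
    have h1 : g' ^ (j - i) • B' = B' := by
      have : g' ^ i • (g' ^ (j - i) • B') = g' ^ i • B' := by
        rw [← mul_smul, ← pow_add, Nat.add_sub_cancel' hij.le, e]
      exact smul_left_cancel _ this
    have hgen : g' ∈ Subgroup.zpowers (g' ^ (j - i)) := by
      have hcop : Nat.Coprime (j - i) (orderOf g') := by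
        rw [hg'o]
        exact (Nat.Coprime.symm ((hp.coprime_iff_not_dvd).2 fun hd => by
          have := Nat.le_of_dvd (by omega) hd; omega))
      obtain ⟨m, hm⟩ := exists_pow_eq_self_of_coprime hcop
      exact Subgroup.mem_zpowers_iff.2 ⟨(m : ℤ), by rw [zpow_natCast, hm]⟩
    obtain ⟨m, hm⟩ := Subgroup.mem_zpowers_iff.1 hgen
    rw [← hm]
    exact MulAction.mem_stabilizer_iff.1 ((MulAction.stabilizer L B').zpow_mem (MulAction.mem_stabilizer_iff.2 h1) m)
  have hall : ∀ i : ℕ, (g ^ i) x ∈ B' := by
    intro i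
    induction i with
    | zero => simpa using hxB
    | succ i ih =>
      have := Set.smul_mem_smul_set (a := g') ih
      rw [hfix] at this
      rw [pow_succ', Perm.mul_apply]
      exact this
  have hsub' : (g.support : Set α) ⊆ B' := by
    intro z hz
    obtain ⟨i, hi⟩ := hc.exists_pow_eq hx (Perm.mem_support.1 hz)
    exact hi ▸ hall i
  have := Set.ncard_le_ncard hsub' (Set.toFinite _)
  rw [Set.ncard_coe_finset, hs, hB'c] at this
  omega

/-- A permutation of order `r` with the maximal number of `r`-cycles. -/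
theorem exists_max_cycles {r : ℕ} (hr : r.Prime) (j : ℕ) (hj1 : 1 ≤ j) (hj : j * r ≤ Fintype.card α) :
    ∃ σ : Perm α, σ.cycleType = Multiset.replicate j r ∧ orderOf σ = r ∧ σ.support.card = j * r := by
  obtain ⟨σ, hσ⟩ := (Equiv.Perm.exists_with_cycleType_iff (α := α) (m := Multiset.replicate j r)).2
    ⟨by rwa [Multiset.sum_replicate, smul_eq_mul], fun a ha => by
      rw [Multiset.eq_of_mem_replicate ha]; exact hr.two_le⟩
  refine ⟨σ, hσ, ?_, ?_⟩
  · refine Nat.dvd_antisymm ?_ ?_
    · rw [← Perm.lcm_cycleType, hσ]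
      exact Multiset.lcm_dvd.2 fun a ha => by rw [Multiset.eq_of_mem_replicate ha]
    · exact Perm.dvd_of_mem_cycleType (by rw [hσ]; exact Multiset.mem_replicate.2 ⟨by omega, rfl⟩)
  · rw [← Perm.sum_cycleType, hσ, Multiset.sum_replicate, smul_eq_mul]

theorem replicate_mem_alternating {σ : Perm α} {r j : ℕ} (h : σ.cycleType = Multiset.replicate j r)
    (hev : Odd r ∨ Even j) : σ ∈ alternatingGroup α := by
  rw [Equiv.Perm.mem_alternatingGroup, Perm.sign_of_cycleType, h, Multiset.sum_replicate, Multiset.card_replicate,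
    smul_eq_mul, neg_one_pow_eq_one_iff_even (by decide)]
  rcases hev with h' | h'
  · have : Even (r + 1) := h'.add_one
    rw [show j * r + j = j * (r + 1) by ring]
    exact this.mul_left j
  · exact (h'.mul_right r).add h'

/-- The core statement, for a subgroup of the alternating group. -/
theorem core (K : Subgroup (Perm α)) (hm : 5 ≤ Fintype.card α) (hKA : K ≤ alternatingGroup α)
    (idx r : ℕ) (hidx : 2 * Nat.card K * idx = (Fintype.card α).factorial) (hr : r.Prime) (hrd : r ∣ idx)
    (hmax : ∀ s : ℕ, s.Prime → s ∣ idx → s ≤ r) :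
    ∃ σ ∈ alternatingGroup α, orderOf σ = r ∧ ∀ g ∈ alternatingGroup α, g * σ * g⁻¹ ∉ K := by
  classical
  set m := Fintype.card α with hmdef
  have hidx0 : idx ≠ 0 := fun e => by rw [e, mul_zero] at hidx; exact m.factorial_ne_zero hidx.symm
  have hconj : ∀ (σ g : Perm α), orderOf (g * σ * g⁻¹) = orderOf σ := fun σ g => by
    rw [← MulAut.conj_apply, MulEquiv.orderOf_eq]
  have hrm : r ≤ m := by
    by_contra hlt
    exact hlt ((hr.dvd_factorial).1 (hidx ▸ hrd.mul_left _))
  by_cases hbig : m < 2 * r
  · -- the `r`-part of the group order is `r`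
    obtain ⟨σ, hσ, hσo, -⟩ := exists_max_cycles (α := α) hr 1 le_rfl (by omega)
    have hr2 : Odd r := hr.odd_of_ne_two (by omega)
    refine ⟨σ, replicate_mem_alternating hσ (Or.inl hr2), hσo, fun g _ hgK => ?_⟩
    have hd : r ∣ Nat.card K := by
      have := Subgroup.orderOf_dvd_natCard K hgK
      rwa [hconj, hσo] at this
    have h1 : r ^ 2 ∣ m.factorial := by
      rw [← hidx, sq]
      exact Nat.mul_dvd_mul (hd.mul_left 2) hrd
    haveI : Fact r.Prime := ⟨hr⟩
    have h2 := Nat.factorization_def m.factorial hr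
    have h3 : m.factorial.factorization r = 1 := by
      rw [Nat.factorization_def _ hr, padicValNat_factorial (b := 2)
        (Nat.log_lt_of_lt_pow (by omega) (by nlinarith))]
      rw [Finset.sum_Ico_eq_sum_range]
      simp only [show 2 - 1 = 1 by norm_num, Finset.sum_range_one, add_zero, pow_one]
      exact Nat.div_eq_of_lt_le (by omega) (by omega)
    have := (hr.pow_dvd_iff_le_factorization m.factorial_ne_zero).1 h1
    omega
  push Not at hbig
  by_contra hno
  push Not at hno
  -- a big prime
  obtain ⟨p, hp, hp1, hp2⟩ := Nat.exists_prime_lt_and_le_two_mul (m / 2) (by omega)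
  have hpm : m < 2 * p := by omega
  have hp3 : 3 ≤ p := by omega
  have hpK : p ∣ Nat.card K := by
    have hd : p ∣ 2 * Nat.card K * idx := hidx ▸ (hp.dvd_factorial.2 (by omega))
    rcases hp.dvd_mul.1 hd with h | h
    · rcases hp.dvd_mul.1 h with h' | h'
      · have := Nat.le_of_dvd two_pos h'; omega
      · exact h'
    · have := hmax p hp h; omega
  haveI : Fact p.Prime := ⟨hp⟩
  obtain ⟨⟨g, hgK⟩, hg⟩ := exists_prime_orderOf_dvd_card' (G := K) p hpK
  rw [← Subgroup.orderOf_coe] at hg
  simp only at hg
  obtain ⟨hgc, hgs⟩ := cycle_of_lt_two_mul hp hg hpm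
  obtain ⟨x, hx⟩ : ∃ x, g x ≠ x := ⟨_, Perm.mem_support.1 (Finset.card_pos.1 (by rw [hgs]; exact hp.pos)).choose_spec⟩
  -- the large orbit
  set O := Finset.univ.filter (fun y : α => ∃ h ∈ K, h x = y) with hO
  have hOinv : ∀ h ∈ K, ∀ y, y ∈ O ↔ h y ∈ O := by
    intro h hh y
    simp only [hO, Finset.mem_filter, Finset.mem_univ, true_and]
    constructor
    · rintro ⟨e, he, rfl⟩; exact ⟨h * e, K.mul_mem hh he, rfl⟩
    · rintro ⟨e, he, hey⟩
      exact ⟨h⁻¹ * e, K.mul_mem (K.inv_mem hh) he, by rw [Perm.mul_apply, hey]; simp⟩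
  have hOp : p ≤ O.card := by
    rw [← hgs]
    refine Finset.card_le_card fun z hz => ?_
    obtain ⟨i, hi⟩ := hgc.exists_pow_eq hx (Perm.mem_support.1 hz)
    exact Finset.mem_filter.2 ⟨Finset.mem_univ _, g ^ i, K.pow_mem hgK i, hi⟩
  set l := O.card with hl
  have hlm : l ≤ m := Finset.card_le_univ _
  let φ : K →* Perm {y // y ∈ O} :=
    { toFun := fun h => (h : Perm α).subtypePerm (fun y => (hOinv h h.2 y).symm)
      map_one' := by ext y; simp
      map_mul' := fun a b => by ext y; rfl }
  set L := φ.range with hL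
  have hcardO : Fintype.card {y // y ∈ O} = l := by simp [hl]
  have hLtrans : IsPretransitive L {y // y ∈ O} := by
    refine ⟨fun a b => ?_⟩
    obtain ⟨-, ea, hea, hea'⟩ := Finset.mem_filter.1 a.2
    obtain ⟨-, eb, heb, heb'⟩ := Finset.mem_filter.1 b.2
    refine ⟨⟨φ ⟨eb * ea⁻¹, K.mul_mem heb (K.inv_mem hea)⟩, ⟨_, rfl⟩⟩, Subtype.ext ?_⟩
    show (eb * ea⁻¹) (a : α) = b
    rw [Perm.mul_apply, ← hea', Perm.inv_def, Equiv.symm_apply_apply, heb']
  have hsuppO : g.support ⊆ O := fun z hz => by
    obtain ⟨i, hi⟩ := hgc.exists_pow_eq hx (Perm.mem_support.1 hz)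
    exact Finset.mem_filter.2 ⟨Finset.mem_univ _, g ^ i, K.pow_mem hgK i, hi⟩
  have hLprim : IsPreprimitive L {y // y ∈ O} := by
    refine primitive_of_big_prime L hLtrans hp (g := φ ⟨g, hgK⟩) ⟨_, rfl⟩ ?_ (by omega)
    refine orderOf_eq_prime ?_ ?_
    · rw [← map_pow, show (⟨g, hgK⟩ : K) ^ p = 1 from Subtype.ext (by rw [SubmonoidClass.coe_pow]; exact hg ▸ pow_orderOf_eq_one g), map_one]
    · intro e
      have hxO : x ∈ O := hsuppO (Perm.mem_support.2 hx)
      have h1 := congrArg Subtype.val (DFunLike.congr_fun e ⟨x, hxO⟩)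
      exact hx (by simpa [φ] using h1)
  -- cycles of order `r`
  have hmem : ∀ {j : ℕ} {σ : Perm α}, σ.cycleType = Multiset.replicate j r → orderOf σ = r → (Odd r ∨ Even j) →
      ∃ h ∈ K, h.cycleType = Multiset.replicate j r := by
    intro j σ hσ hσo hev
    obtain ⟨c, -, hcK⟩ := hno σ (replicate_mem_alternating hσ hev) hσo
    exact ⟨_, hcK, by rw [Perm.cycleType_conj, hσ]⟩
  -- restriction to `O` of an element of prime order
  have himage : ∀ (q : ℕ), q.Prime → ∀ h ∈ K, h.cycleType = {q} → h.support ⊆ O →
      ∃ e ∈ L, e.IsCycle ∧ e.support.card = q := by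
    intro q hq h hh hct hsub
    refine ⟨φ ⟨h, hh⟩, ⟨_, rfl⟩, ?_⟩
    have hext : Perm.ofSubtype (φ ⟨h, hh⟩) = h :=
      Perm.ofSubtype_subtypePerm (fun z => (hOinv h hh z).symm) fun z hz => hsub (Perm.mem_support.2 hz)
    have : (φ ⟨h, hh⟩).cycleType = {q} := by rw [← Perm.cycleType_ofSubtype, hext, hct]
    refine ⟨Perm.card_cycleType_eq_one.1 (by rw [this]; rfl), ?_⟩
    rw [← Perm.sum_cycleType, this, Multiset.sum_singleton]
  -- the orbit is not everything if `L` is alternating
  have hbigL : alternatingGroup {y // y ∈ O} ≤ L → l.factorial ∣ 2 * Nat.card K := by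
    intro hle
    have h1 := Subgroup.card_dvd_of_le hle
    have h2 : Nat.card L ∣ Nat.card K := Subgroup.card_range_dvd φ
    have hnt : Nontrivial {y // y ∈ O} := by rw [← Fintype.one_lt_card_iff_nontrivial, hcardO]; omega
    have h3 := two_mul_card_alternatingGroup (α := {y // y ∈ O})
    rw [Fintype.card_perm, hcardO, ← Nat.card_eq_fintype_card] at h3
    rw [← h3]
    exact Nat.mul_dvd_mul_left 2 (h1.trans h2)
  by_cases hOtop : l = m
  · -- `K` is transitive
    have hOu : ∀ y, y ∈ O := by
      intro y
      rw [Finset.eq_univ_of_card O hOtop]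
      exact Finset.mem_univ y
    have halt : alternatingGroup {y // y ∈ O} ≤ L := by
      rcases hr.eq_two_or_odd' with rfl | hodd
      · -- a `3`-cycle lies in a conjugate of `K`
        obtain ⟨τ, hτ, hτo, -⟩ := exists_max_cycles (α := α) Nat.prime_three 1 le_rfl (by omega)
        have hτA : τ ∈ alternatingGroup α := replicate_mem_alternating hτ (Or.inl (by decide))
        set A := alternatingGroup α
        set KA := K.subgroupOf A with hKAdef
        have hidx' : KA.index = idx := by
          have h1 := KA.card_mul_index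
          rw [Nat.card_congr (Subgroup.subgroupOfEquivOfLe hKA).toEquiv] at h1
          haveI : Nontrivial α := Fintype.one_lt_card_iff_nontrivial.1 (by omega)
          have h2 := two_mul_card_alternatingGroup (α := α)
          rw [Fintype.card_perm, ← Nat.card_eq_fintype_card] at h2
          refine Nat.eq_of_mul_eq_mul_left (Nat.mul_pos two_pos (Nat.card_pos (α := K))) ?_
          rw [hidx, ← h2, mul_assoc, h1]
        set P := Subgroup.zpowers (⟨τ, hτA⟩ : A)
        haveI : Fact (Nat.Prime 3) := ⟨Nat.prime_three⟩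
        have hP : IsPGroup 3 P := IsPGroup.of_card (n := 1) (by
          rw [Nat.card_zpowers, Subgroup.orderOf_mk, hτo, pow_one])
        have hndvd : ¬ 3 ∣ Nat.card (A ⧸ KA) := by
          intro hd
          have hd' : 3 ∣ idx := hidx' ▸ hd
          have := hmax 3 Nat.prime_three hd'
          omega
        obtain ⟨q, hq⟩ := hP.nonempty_fixed_point_of_prime_not_dvd_card (A ⧸ KA) hndvd
        induction q using QuotientGroup.induction_on with
        | _ c =>
        have hc := hq ⟨_, Subgroup.mem_zpowers _⟩
        have hc' : ((c : A)⁻¹ * ⟨τ, hτA⟩ * c) ∈ KA := by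
          have h1 : ((⟨τ, hτA⟩ * c : A) : A ⧸ KA) = (c : A ⧸ KA) := hc
          rw [QuotientGroup.eq] at h1
          have := KA.inv_mem h1
          simpa [mul_assoc] using this
        have hK' : (c : Perm α)⁻¹ * τ * c ∈ K := hc'
        obtain ⟨e, heL, hec, hes⟩ := himage 3 Nat.prime_three _ hK' (by
            have := Perm.cycleType_conj (σ := τ) (τ := (c : Perm α)⁻¹)
            rw [inv_inv] at this
            rw [this, hτ]; rfl) (fun z _ => hOu z)
        exact Perm.alternatingGroup_le_of_isPreprimitive_of_isThreeCycle_mem hLprim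
          (card_support_eq_three_iff.1 hes) heL
      · obtain ⟨σ, hσ, hσo, -⟩ := exists_max_cycles (α := α) hr 1 le_rfl (by omega)
        obtain ⟨h, hh, hct⟩ := hmem hσ hσo (Or.inl hodd)
        obtain ⟨e, heL, hec, hes⟩ := himage r hr h hh hct (fun z _ => hOu z)
        refine alternating_le_of_prime_cycle L hLprim hr (by rw [hcardO]; omega) hec hes heL
    have hd := hbigL halt
    rw [hOtop, ← hidx] at hd
    have h1 : idx = 1 := by
      refine Nat.dvd_one.1 (Nat.dvd_of_mul_dvd_mul_left (Nat.mul_pos two_pos (Nat.card_pos (α := K))) ?_)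
      rw [mul_one]; exact hd
    rw [h1] at hrd
    exact hr.one_lt.ne' (Nat.dvd_one.1 hrd)
  -- `K` is intransitive
  set k := m - l with hk
  have hk1 : 1 ≤ k := by omega
  have hkm : 2 * k ≤ m := by omega
  have hstab : Nat.card K ∣ l.factorial * k.factorial := by
    let ψ : K →* Perm {y // y ∈ O} × Perm {y // y ∉ O} :=
      { toFun := fun h => (φ h, (h : Perm α).subtypePerm (fun y => not_congr (hOinv h h.2 y).symm))
        map_one' := by ext y <;> simp [φ]
        map_mul' := fun a b => by ext y <;> rfl }
    have hinj : Function.Injective ψ := by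
      intro a b e
      refine Subtype.ext (Equiv.ext fun y => ?_)
      by_cases hy : y ∈ O
      · exact congrArg Subtype.val (DFunLike.congr_fun (congrArg Prod.fst e) ⟨y, hy⟩)
      · exact congrArg Subtype.val (DFunLike.congr_fun (congrArg Prod.snd e) ⟨y, hy⟩)
    have h1 := Subgroup.card_dvd_of_injective ψ hinj
    rw [Nat.card_prod, Nat.card_eq_fintype_card (α := Perm {y // y ∈ O}),
      Nat.card_eq_fintype_card (α := Perm {y // y ∉ O}), Fintype.card_perm, Fintype.card_perm, hcardO,
      Fintype.card_subtype_compl, hcardO] at h1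
    exact h1
  have hfac : l.factorial * k.factorial * m.choose k = m.factorial := by
    have := Nat.choose_mul_factorial_mul_factorial (show k ≤ m by omega)
    rw [show m - k = l by omega] at this
    rw [← this]; ring
  have hCidx : m.choose k ∣ 2 * idx := by
    obtain ⟨q, hq⟩ := hstab
    refine ⟨q, ?_⟩
    have h2 : Nat.card K * (2 * idx) = Nat.card K * (m.choose k * q) := by
      calc Nat.card K * (2 * idx) = m.factorial := by rw [← hidx]; ring
        _ = Nat.card K * (m.choose k * q) := by rw [← hfac, hq]; ring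
    exact Nat.eq_of_mul_eq_mul_left (Nat.card_pos (α := K)) h2
  obtain ⟨s, hs, hks, hsd⟩ := Sylvester.exists_prime_gt_dvd_choose hk1 hkm
  have hsr : s ≤ r := by
    rcases hs.dvd_mul.1 (hsd.trans hCidx) with h | h
    · have := Nat.le_of_dvd two_pos h
      have := hr.two_le
      omega
    · exact hmax s hs h
  by_cases hmod : m % r < k
  · -- all points outside a set of fewer than `k` are moved
    set j := m / r with hj
    have hjr : j * r + m % r = m := by rw [hj, mul_comm]; exact Nat.div_add_mod m r
    have hev : Odd r ∨ Even j := by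
      rcases hr.eq_two_or_odd' with rfl | h
      · right
        -- the degree is a power of two
        have hk1' : k = 1 := by omega
        rw [hk1', Nat.choose_one_right] at hCidx
        have hm2 : ∀ {d : ℕ}, d.Prime → d ∣ m → d = 2 := by
          intro d hd hdm
          rcases hd.dvd_mul.1 (hdm.trans hCidx) with h' | h'
          · exact (Nat.prime_dvd_prime_iff_eq hd Nat.prime_two).1 h'
          · have := hmax d hd h'
            have := hd.two_le
            omega
        have he := Nat.eq_prime_pow_of_unique_prime_dvd (by omega : m ≠ 0) hm2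
        set e := m.primeFactorsList.length
        have he3 : 3 ≤ e := by
          by_contra hlt
          have : 2 ^ e ≤ 2 ^ 2 := Nat.pow_le_pow_right two_pos (by omega)
          omega
        obtain ⟨e', he'⟩ : ∃ e', e = e' + 2 := ⟨e - 2, by omega⟩
        refine ⟨2 ^ e', ?_⟩
        rw [he', pow_add] at he
        omega
      · exact Or.inl h
    obtain ⟨σ, hσ, hσo, -⟩ := exists_max_cycles (α := α) hr j
      (by rw [hj]; exact Nat.le_div_iff_mul_le hr.pos |>.2 (by omega)) (by omega)
    obtain ⟨h, hh, hct⟩ := hmem hσ hσo hev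
    have hfixc : ∀ y, y ∉ O → h y = y := by
      intro y hy
      by_contra hne
      have hsub : Finset.univ.filter (fun z => h.SameCycle y z) ⊆ Oᶜ := by
        intro z hz
        rw [Finset.mem_compl]
        obtain ⟨i, hi⟩ := (Finset.mem_filter.1 hz).2.exists_nat_pow_eq
        intro hzO
        exact hy (((hOinv (h ^ i) (K.pow_mem hh i) y).2 (hi ▸ hzO)))
      have hcyc : (h.cycleOf y).support.card = r := by
        have hmem' : (h.cycleOf y).support.card ∈ h.cycleType := by
          rw [Perm.cycleType_def]
          refine Multiset.mem_map.2 ⟨h.cycleOf y, ?_, rfl⟩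
          exact Perm.cycleOf_mem_cycleFactorsFinset_iff.2 (Perm.mem_support.2 hne)
        rw [hct] at hmem'
        exact Multiset.eq_of_mem_replicate hmem'
      have hle : (h.cycleOf y).support.card ≤ (Oᶜ).card := Finset.card_le_card fun z hz => hsub
        (Finset.mem_filter.2 ⟨Finset.mem_univ _, (Perm.mem_support_cycleOf_iff.1 hz).1⟩)
      rw [hcyc, Finset.card_compl] at hle
      omega
    have hle : (Oᶜ).card ≤ (h.supportᶜ).card :=
      Finset.card_le_card fun y hy => Finset.mem_compl.2 fun hy' =>
        Perm.mem_support.1 hy' (hfixc y (Finset.mem_compl.1 hy))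
    rw [Finset.card_compl, Finset.card_compl, ← Perm.sum_cycleType, hct, Multiset.sum_replicate, smul_eq_mul] at hle
    omega
  · -- `r` does not divide the index
    push Not at hmod
    have hrk : k < r := lt_of_le_of_lt hmod (Nat.mod_lt _ hr.pos)
    have hrC : ¬ r ∣ m.choose k := by
      intro hd
      have h1 : r ∣ m.descFactorial k := by
        rw [Nat.descFactorial_eq_factorial_mul_choose]; exact hd.mul_left _
      rw [Nat.descFactorial_eq_prod_range] at h1
      obtain ⟨i, hi, hdi⟩ := (Prime.dvd_finset_prod_iff hr.prime _).1 h1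
      rw [Finset.mem_range] at hi
      obtain ⟨c, hc⟩ := hdi
      have : m % r = i := by
        rw [show m = i + r * c by omega, Nat.add_mul_mod_self_left, Nat.mod_eq_of_lt (by omega)]
      omega
    have hodd : Odd r := by
      refine hr.odd_of_ne_two fun e => ?_
      subst e
      have hk1' : k = 1 := by omega
      have hs2 : s = 2 := by have := hs.two_le; omega
      exact hrC (hs2 ▸ hsd)
    have hr3 : 3 ≤ r := by rcases hodd with ⟨c, hc⟩; have := hr.two_le; omega
    obtain ⟨σ, hσ, hσo, -⟩ := exists_max_cycles (α := α) hr 1 le_rfl (by omega)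
    obtain ⟨h, hh, hct⟩ := hmem hσ hσo (Or.inl hodd)
    have hsub : h.support ⊆ O := by
      intro y hy
      by_contra hyO
      have hc : h.IsCycle := Perm.card_cycleType_eq_one.1 (by rw [hct]; rfl)
      have hsub' : h.support ⊆ Oᶜ := fun z hz => by
        rw [Finset.mem_compl]
        obtain ⟨i, hi⟩ := hc.exists_pow_eq (Perm.mem_support.1 hy) (Perm.mem_support.1 hz)
        intro hzO
        exact hyO (((hOinv (h ^ i) (K.pow_mem hh i) y).2 (hi ▸ hzO)))
      have hle := Finset.card_le_card hsub'
      rw [← Perm.sum_cycleType, hct, Finset.card_compl, Multiset.sum_replicate, smul_eq_mul, ← hl, ← hmdef] at hle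
      omega
    obtain ⟨e, heL, hec, hes⟩ := himage r hr h hh hct hsub
    have hdiv : 2 * r + k ≤ m := by
      have h2 : 2 ≤ m / r := (Nat.le_div_iff_mul_le hr.pos).2 hbig
      have h3 : r * 2 ≤ r * (m / r) := Nat.mul_le_mul_left r h2
      have h4 := Nat.div_add_mod m r
      omega
    have halt := alternating_le_of_prime_cycle L hLprim hr (by rw [hcardO]; omega) hec hes heL
    obtain ⟨q, hq⟩ := hbigL halt
    have h2 : idx ∣ k.factorial * m.choose k := by
      refine ⟨q, ?_⟩
      have h3 : l.factorial * (k.factorial * m.choose k) = l.factorial * (q * idx) := by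
        rw [← mul_assoc, hfac, ← hidx, hq]; ring
      rw [Nat.eq_of_mul_eq_mul_left l.factorial_pos h3]; ring
    rcases hr.dvd_mul.1 (hrd.trans h2) with h3 | h3
    · exact absurd (hr.dvd_factorial.1 h3) (by omega)
    · exact hrC h3

end Cfsg.Agent.PermGroups.AltDerangement
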